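import Cfsg.Agent.Lib.LawFree.PingPong
import Mathlib.LinearAlgebra.Matrix.SpecialLinearGroup
import Mathlib.LinearAlgebra.Matrix.Notation
import Mathlib.Tactic.LinearCombination
import Mathlib.Tactic.FinCases
import Mathlib.Tactic.FieldSimp
import Mathlib.GroupTheory.Abelianization.Defs

/-! Word maps on `SL₂` over large fields, and perfectness of `SL₂`. -/

set_option autoImplicit false

namespace CfsgLib.LawFree

open Polynomial Matrix MatrixGroups

variable {F : Type*} [Field F]

/-- lower unitriangular times upper unitriangular -/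
def sl2Base (c : F) : SL(2, F) :=
  ⟨!![1, 1; c, c + 1], by simp [Matrix.det_fin_two]⟩

theorem sl2Base_inv (c : F) :
    (((sl2Base c)⁻¹ : SL(2, F)) : Matrix (Fin 2) (Fin 2) F) = !![c + 1, -1; -c, 1] := by
  rw [Matrix.SpecialLinearGroup.coe_inv]
  show Matrix.adjugate !![1, 1; c, c + 1] = _
  simp [Matrix.adjugate_fin_two]

theorem sl2Base_coe (c : F) :
    ((sl2Base c : SL(2, F)) : Matrix (Fin 2) (Fin 2) F) = !![1, 1; c, c + 1] := rfl

/-- The bound on the field size needed for a word. -/
def sl2Bound (w : FreeGroup ℕ) : ℕ := 2 * w.toWord.length + 8 * genBound w + 9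

theorem sl2_word_not_scalar [Fintype F] (w : FreeGroup ℕ) (hw : w ≠ 1)
    (hF : sl2Bound w ≤ Fintype.card F) :
    ∃ f : ℕ → SL(2, F), ∀ k : F,
      ((FreeGroup.lift f w : SL(2, F)) : Matrix (Fin 2) (Fin 2) F) ≠ k • 1 := by
  classical
  obtain ⟨b, hb⟩ := exists_separated ({0, 1, -1} : Finset F) (genBound w) (by
    have h3 : ({0, 1, -1} : Finset F).card ≤ 3 := Finset.card_le_three
    have := Nat.mul_le_mul_left (genBound w) (Nat.add_le_add_right (Nat.mul_le_mul_left 2 h3) 2)
    unfold sl2Bound at hF
    omega)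
  let c : Config F (Fin 2) ℕ :=
    { P := fun a => (sl2Base (b a) : Matrix (Fin 2) (Fin 2) F)
      Q := fun a => (((sl2Base (b a))⁻¹ : SL(2, F)) : Matrix (Fin 2) (Fin 2) F)
      d := fun s => cond s ![2, 0] ![0, 2]
      top := fun s => cond s 0 1
      e := 2 }
  have hgood : c.Good {a | ∃ s, (a, s) ∈ w.toWord} := by
    refine ⟨fun a _ => ?_, ?_, ?_, ?_⟩
    · simp only [c]
      rw [← Matrix.SpecialLinearGroup.coe_mul, inv_mul_cancel, Matrix.SpecialLinearGroup.coe_one]
    · intro s i hi
      cases s <;> fin_cases i <;> simp_all [c]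
    · intro s
      cases s <;> simp [c]
    · rintro a ⟨s, ha⟩ a' ⟨s', ha'⟩ hne t t'
      obtain ⟨h0, hB⟩ := hb a (lt_genBound ha) a' (lt_genBound ha') hne
      simp only [Finset.mem_insert, Finset.mem_singleton, not_or] at hB
      obtain ⟨-, h1, hm1⟩ := hB
      simp only [c, sl2Base_inv, sl2Base_coe]
      cases t <;> cases t' <;> simp [Matrix.mul_apply, Fin.sum_univ_two]
      all_goals intro h
      all_goals first
        | exact h0 (by linear_combination h)
        | exact h0 (by linear_combination -h)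
        | exact h1 (by linear_combination h)
        | exact h1 (by linear_combination -h)
        | exact hm1 (by linear_combination h)
        | exact hm1 (by linear_combination -h)
  obtain ⟨t, ht, key⟩ := exists_param_not_scalar c w hw hgood (by
    simp only [c]; unfold sl2Bound at hF; omega)
  refine ⟨fun a => sl2Base (b a) * Matrix.SpecialLinearGroup.diag2 t ht * (sl2Base (b a))⁻¹, ?_⟩
  have hd : ∀ (r : F) (hr : r ≠ 0),
      ((Matrix.SpecialLinearGroup.diag2 r hr : SL(2, F)) : Matrix (Fin 2) (Fin 2) F) =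
        r⁻¹ • diagonal ![r ^ 2, 1] := by
    intro r hr
    rw [Matrix.SpecialLinearGroup.diag2_coe']
    ext i j
    fin_cases i <;> fin_cases j <;> simp [Matrix.diagonal, sq, hr]
  refine key Matrix.SpecialLinearGroup.coeMonoidHom _ t⁻¹ (inv_ne_zero ht) fun a _ => ⟨?_, ?_⟩
  · simp only [Matrix.SpecialLinearGroup.coeMonoidHom_apply, Matrix.SpecialLinearGroup.coe_mul, c,
      hd, Matrix.mul_smul, Matrix.smul_mul]
    congr 3
    congr 1
    ext i
    fin_cases i <;> simp
  · rw [_root_.mul_inv_rev, _root_.mul_inv_rev, inv_inv, ← mul_assoc, Matrix.SpecialLinearGroup.diag2_inv t ht]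
    simp only [Matrix.SpecialLinearGroup.coeMonoidHom_apply, Matrix.SpecialLinearGroup.coe_mul, c,
      hd, inv_inv]
    rw [← Matrix.smul_mul, ← Matrix.mul_smul]
    congr 2
    ext i j
    fin_cases i <;> fin_cases j <;> simp [Matrix.diagonal, sq, ht]

theorem sl2_word_not_center [Fintype F] (w : FreeGroup ℕ) (hw : w ≠ 1)
    (hF : sl2Bound w ≤ Fintype.card F) :
    ∃ f : ℕ → SL(2, F), FreeGroup.lift f w ∉ Subgroup.center (SL(2, F)) := by
  obtain ⟨f, hf⟩ := sl2_word_not_scalar w hw hF
  refine ⟨f, fun hc => ?_⟩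
  obtain ⟨r, -, hr⟩ := Matrix.SpecialLinearGroup.mem_center_iff.mp hc
  refine hf r ?_
  rw [← hr]
  simp [Matrix.scalar_apply, ← Matrix.smul_one_eq_diagonal]

theorem exists_sq_ne_one [Fintype F] (h4 : 4 ≤ Fintype.card F) :
    ∃ a : F, a ≠ 0 ∧ a ^ 2 ≠ 1 := by
  classical
  obtain ⟨a, -, ha⟩ := Finset.exists_mem_notMem_of_card_lt_card
    (s := ({0, 1, -1} : Finset F)) (t := Finset.univ)
    (lt_of_le_of_lt Finset.card_le_three (by rw [Finset.card_univ]; omega))
  simp only [Finset.mem_insert, Finset.mem_singleton, not_or] at ha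
  refine ⟨a, ha.1, fun h => ?_⟩
  rcases sq_eq_one_iff.mp h with h' | h'
  · exact ha.2.1 h'
  · exact ha.2.2 h'

/-- Every homomorphism from `SL₂` over a field with at least four elements to a commutative group is
trivial. -/
theorem sl2_hom_comm_eq_one [Fintype F] (h4 : 4 ≤ Fintype.card F) {A : Type*} [CommGroup A]
    (ψ : SL(2, F) →* A) : ψ = 1 := by
  obtain ⟨a, ha, ha2⟩ := exists_sq_ne_one h4
  have htr : ∀ (i j : Fin 2) (hij : i ≠ j) (c : F),
      ψ (Matrix.SpecialLinearGroup.transvection hij c) = 1 := by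
    intro i j hij c
    have hk : (a ^ 2 - 1) ≠ 0 := sub_ne_zero.mpr ha2
    set h := Matrix.SpecialLinearGroup.diag2n hij a ha
    have hconj : h * Matrix.SpecialLinearGroup.transvection hij (c / (a ^ 2 - 1)) =
        Matrix.SpecialLinearGroup.transvection hij c *
          Matrix.SpecialLinearGroup.transvection hij (c / (a ^ 2 - 1)) * h := by
      rw [← Matrix.SpecialLinearGroup.transvection_add hij]
      apply Subtype.ext
      have e : c + c / (a ^ 2 - 1) = a ^ 2 * (c / (a ^ 2 - 1)) := by field_simp; ring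
      simp only [Matrix.SpecialLinearGroup.coe_mul, h, Matrix.SpecialLinearGroup.diag2n_coe,
        Matrix.SpecialLinearGroup.transvection_coe, e]
      ext r s
      rw [Matrix.diagonal_mul, Matrix.mul_diagonal]
      by_cases h1 : r = s
      · subst h1
        by_cases h2 : i = r <;> by_cases h3 : j = r
        · exact absurd (h2.trans h3.symm) hij
        all_goals simp [Matrix.single_apply, h2, h3, hij, Ne.symm hij]
      · by_cases h2 : i = r ∧ j = s
        · obtain ⟨rfl, rfl⟩ := h2
          simp [Matrix.single_apply, h1, Ne.symm h1]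
          field_simp
        · simp [Matrix.single_apply, h1, h2]
    have := congrArg ψ hconj
    simp only [map_mul] at this
    rw [mul_comm (ψ h)] at this
    simpa using mul_right_cancel (mul_right_cancel (this.symm.trans
      (show _ = 1 * ψ (Matrix.SpecialLinearGroup.transvection hij (c / (a ^ 2 - 1))) * ψ h by
        rw [one_mul])))
  ext g
  simp only [MonoidHom.one_apply]
  refine Matrix.SpecialLinearGroup.diagonal_transvection_induction' (fun g => ψ g = 1) g ?_ htr
    (fun A B hA hB => by simp [map_mul, hA, hB])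
  intro i j hij r hr
  have e : Matrix.SpecialLinearGroup.diag2n hij r hr =
      Matrix.SpecialLinearGroup.transvection hij r *
        Matrix.SpecialLinearGroup.transvection hij.symm (-r⁻¹) *
        Matrix.SpecialLinearGroup.transvection hij r *
        (Matrix.SpecialLinearGroup.transvection hij (-1) *
          Matrix.SpecialLinearGroup.transvection hij.symm 1 *
          Matrix.SpecialLinearGroup.transvection hij (-1)) := by
    apply Subtype.ext
    simp only [Matrix.SpecialLinearGroup.coe_mul, Matrix.SpecialLinearGroup.diag2n_coe,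
      Matrix.SpecialLinearGroup.transvection_coe]
    ext x y
    fin_cases i <;> fin_cases j <;> fin_cases x <;> fin_cases y <;>
      simp_all [Matrix.mul_apply, Fin.sum_univ_two, Matrix.diagonal, Matrix.single, Matrix.one_apply]
  simp [e, map_mul, htr]

theorem sl2_hom_range_le_commutator [Fintype F] (h4 : 4 ≤ Fintype.card F) {G : Type*} [Group G]
    (φ : SL(2, F) →* G) (g : SL(2, F)) : φ g ∈ commutator G := by
  have h := DFunLike.congr_fun (sl2_hom_comm_eq_one h4 ((Abelianization.of).comp φ)) g
  rw [MonoidHom.comp_apply, MonoidHom.one_apply, ← MonoidHom.mem_ker] at h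
  rwa [Abelianization.ker_of] at h

theorem exists_not_center_of_injective [Fintype F] (w : FreeGroup ℕ) (hw : w ≠ 1)
    (hF : sl2Bound w ≤ Fintype.card F) {G : Type*} [Group G] (φ : SL(2, F) →* G)
    (hφ : Function.Injective φ) : ∃ f : ℕ → G, FreeGroup.lift f w ∉ Subgroup.center G := by
  obtain ⟨f, hf⟩ := sl2_word_not_center w hw hF
  refine ⟨φ ∘ f, fun hc => hf ?_⟩
  have e : FreeGroup.lift (φ ∘ f) w = φ (FreeGroup.lift f w) := by
    have : FreeGroup.lift (φ ∘ f) = φ.comp (FreeGroup.lift f) := by
      ext; simp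
    rw [this]; rfl
  rw [e] at hc
  refine Subgroup.mem_center_iff.mpr fun g => hφ ?_
  rw [map_mul, map_mul]
  exact Subgroup.mem_center_iff.mp hc (φ g)

theorem exists_quotient_center_ne_one [Fintype F] (w : FreeGroup ℕ) (hw : w ≠ 1)
    (hF : sl2Bound w ≤ Fintype.card F) {G : Type*} [Group G] (φ : SL(2, F) →* G)
    (hφ : Function.Injective φ) :
    ∃ f : ℕ → G ⧸ Subgroup.center G, FreeGroup.lift f w ≠ 1 := by
  obtain ⟨f, hf⟩ := exists_not_center_of_injective w hw hF φ hφ
  refine ⟨fun a => QuotientGroup.mk (f a), fun h => hf ?_⟩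
  rw [← QuotientGroup.eq_one_iff, ← h]
  have : FreeGroup.lift (fun a => (QuotientGroup.mk (f a) : G ⧸ Subgroup.center G)) =
      (QuotientGroup.mk' (Subgroup.center G)).comp (FreeGroup.lift f) := by
    ext; simp
  rw [this]; rfl

end CfsgLib.LawFree
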