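import Cfsg.Prelude.Def_Classical
import Cfsg.Agent.Lib.LawFree.SL2

/-! Large `SL₂`'s inside alternating and classical groups. -/

set_option autoImplicit false

namespace CfsgLib.LawFree

open Matrix MatrixGroups

universe u v

section linear

variable {F : Type u} [Field F] {α β γ : Type} [Fintype α] [DecidableEq α] [Fintype β] [DecidableEq β]
  [Fintype γ] [DecidableEq γ]

/-- `g ↦ diag (g, 1)`. -/
def padHom (F : Type u) [Field F] (α β : Type) [Fintype α] [DecidableEq α] [Fintype β] [DecidableEq β] :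
    Matrix α α F →* Matrix (α ⊕ β) (α ⊕ β) F where
  toFun g := Matrix.fromBlocks g 0 0 1
  map_one' := Matrix.fromBlocks_one
  map_mul' g h := by simp [Matrix.fromBlocks_multiply]

/-- `g ↦ diag (g, 1)` on units. -/
def padGL : GL α F →* GL (α ⊕ β) F := Units.map (padHom F α β)

/-- Reindexing. -/
def reindexGL (e : α ≃ γ) : GL α F →* GL γ F :=
  Units.map ((Matrix.reindexAlgEquiv F F e).toAlgHom.toRingHom.toMonoidHom)

theorem padGL_injective : Function.Injective (padGL : GL α F →* GL (α ⊕ β) F) := by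
  intro g h hgh
  apply Units.ext
  have := congrArg (fun x : GL (α ⊕ β) F => (x : Matrix (α ⊕ β) (α ⊕ β) F).toBlocks₁₁) hgh
  simpa [padGL, padHom] using this

theorem reindexGL_injective (e : α ≃ γ) : Function.Injective (reindexGL (F := F) e) :=
  Units.map_injective (Matrix.reindexAlgEquiv F F e).injective

theorem padGL_mulVec (g : GL α F) (v : α ⊕ β → F) :
    ((padGL g : GL (α ⊕ β) F) : Matrix (α ⊕ β) (α ⊕ β) F) *ᵥ v =
      Sum.elim ((g : Matrix α α F) *ᵥ (v ∘ Sum.inl)) (v ∘ Sum.inr) := by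
  simp [padGL, padHom, Matrix.fromBlocks_mulVec]

theorem reindexGL_mulVec (e : α ≃ γ) (g : GL α F) (v : γ → F) :
    ((reindexGL e g : GL γ F) : Matrix γ γ F) *ᵥ v = ((g : Matrix α α F) *ᵥ (v ∘ e)) ∘ e.symm := by
  show Matrix.submatrix (g : Matrix α α F) e.symm e.symm *ᵥ v = _
  rw [Matrix.submatrix_mulVec_equiv]
  rfl

/-- Embedding `GL_2` in `GL_n` on the first two coordinates. -/
noncomputable def cornerHom {n : ℕ} (hn : 2 ≤ n) : GL (Fin 2) F →* GL (Fin n) F :=
  (reindexGL (finSumFinEquiv.trans (finCongr (Nat.add_sub_cancel' hn)))).comp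
    (padGL (β := Fin (n - 2)))

theorem cornerHom_injective {n : ℕ} (hn : 2 ≤ n) : Function.Injective (cornerHom (F := F) hn) :=
  (reindexGL_injective _).comp padGL_injective

/-- The Levi embedding `g ↦ diag (g, g⁻ᵀ)`. -/
def leviHom : GL α F →* GL (α ⊕ α) F where
  toFun g :=
    { val := Matrix.fromBlocks (g : Matrix α α F) 0 0 ((g⁻¹ : GL α F) : Matrix α α F)ᵀ
      inv := Matrix.fromBlocks ((g⁻¹ : GL α F) : Matrix α α F) 0 0 (g : Matrix α α F)ᵀ
      val_inv := by simp [Matrix.fromBlocks_multiply, ← Matrix.transpose_mul]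
      inv_val := by simp [Matrix.fromBlocks_multiply, ← Matrix.transpose_mul] }
  map_one' := by apply Units.ext; simp
  map_mul' g h := by
    apply Units.ext
    show Matrix.fromBlocks ((g * h : GL α F) : Matrix α α F) 0 0
      (((g * h)⁻¹ : GL α F) : Matrix α α F)ᵀ = _ * _
    simp [Matrix.fromBlocks_multiply, Matrix.transpose_mul, _root_.mul_inv_rev]

theorem leviHom_injective : Function.Injective (leviHom : GL α F →* GL (α ⊕ α) F) := by
  intro g h hgh
  apply Units.ext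
  have := congrArg (fun x : GL (α ⊕ α) F => (x : Matrix (α ⊕ α) (α ⊕ α) F).toBlocks₁₁) hgh
  simpa [leviHom] using this

theorem leviHom_mulVec (g : GL α F) (v : α ⊕ α → F) :
    ((leviHom g : GL (α ⊕ α) F) : Matrix (α ⊕ α) (α ⊕ α) F) *ᵥ v =
      Sum.elim ((g : Matrix α α F) *ᵥ (v ∘ Sum.inl))
        (((g⁻¹ : GL α F) : Matrix α α F)ᵀ *ᵥ (v ∘ Sum.inr)) := by
  simp [leviHom, Matrix.fromBlocks_mulVec]

theorem leviHom_mem_symplectic (g : GL α F) :
    ((leviHom g : GL (α ⊕ α) F) : Matrix (α ⊕ α) (α ⊕ α) F) ∈ Matrix.symplecticGroup α F := by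
  rw [SymplecticGroup.mem_iff]
  simp [leviHom, Matrix.J, Matrix.fromBlocks_transpose, Matrix.fromBlocks_multiply,
    ← Matrix.transpose_mul]

theorem dotProduct_levi (g : GL α F) (x y : α → F) :
    ((g : Matrix α α F) *ᵥ x) ⬝ᵥ (((g⁻¹ : GL α F) : Matrix α α F)ᵀ *ᵥ y) = x ⬝ᵥ y := by
  rw [Matrix.mulVec_transpose, dotProduct_comm, ← Matrix.dotProduct_mulVec,
    Matrix.mulVec_mulVec, ← Units.val_mul, inv_mul_cancel, Units.val_one, Matrix.one_mulVec,
    dotProduct_comm]

theorem mem_isometryGroup_iff {Q : (α → F) → F} {g : GL α F} :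
    g ∈ Cfsg.isometryGroup F Q ↔ ∀ v : α → F, Q ((g : Matrix α α F) *ᵥ v) = Q v :=
  ⟨fun h v => h v v, fun h u _ => h u⟩

theorem levi_mem_plus {m : ℕ} (g : GL (Fin m) F) :
    leviHom g ∈ Cfsg.isometryGroup F (Cfsg.quadFormPlus m F) := by
  rw [mem_isometryGroup_iff]
  intro v
  rw [leviHom_mulVec]
  exact dotProduct_levi g (v ∘ Sum.inl) (v ∘ Sum.inr)

theorem levi_mem_odd {m : ℕ} (g : GL (Fin m) F) :
    reindexGL (Equiv.sumComm (Fin m ⊕ Fin m) Unit) (padGL (β := Unit) (leviHom g)) ∈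
      Cfsg.isometryGroup F (Cfsg.quadFormOdd m F) := by
  rw [mem_isometryGroup_iff]
  intro v
  rw [reindexGL_mulVec, padGL_mulVec, leviHom_mulVec]
  exact congrArg (v (Sum.inl ()) ^ 2 + ·)
    (dotProduct_levi g (fun i => v (Sum.inr (Sum.inl i))) (fun i => v (Sum.inr (Sum.inr i))))

theorem levi_mem_minus {m : ℕ} (a b : F) (g : GL (Fin m) F) :
    padGL (β := Fin 2) (leviHom g) ∈ Cfsg.isometryGroup F (Cfsg.quadFormMinus m F a b) := by
  rw [mem_isometryGroup_iff]
  intro v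
  rw [padGL_mulVec, leviHom_mulVec]
  exact congrArg (· + (v (.inr 0) ^ 2 + a * v (.inr 0) * v (.inr 1) + b * v (.inr 1) ^ 2))
    (dotProduct_levi g (fun i => v (Sum.inl (Sum.inl i))) (fun i => v (Sum.inl (Sum.inr i))))

end linear

section sl2

variable {K : Type v} [Field K] [Fintype K]

theorem sl2Bound_ge_four {w : FreeGroup ℕ} (hF : sl2Bound w ≤ Fintype.card K) :
    4 ≤ Fintype.card K := by
  unfold sl2Bound at hF
  omega

variable {F : Type u} [Field F] {ι : Type} [Fintype ι] [DecidableEq ι]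

theorem det_eq_one (h4 : 4 ≤ Fintype.card K) (φ : SL(2, K) →* GL ι F) (x : SL(2, K)) :
    ((φ x : GL ι F) : Matrix ι ι F).det = 1 := by
  have h := DFunLike.congr_fun (sl2_hom_comm_eq_one h4 (Matrix.GeneralLinearGroup.det.comp φ)) x
  simpa using congrArg Units.val h

/-- A homomorphism from `SL₂` to `GL` lands in `SL`. -/
noncomputable def toSLHom {n : ℕ} (h4 : 4 ≤ Fintype.card K) (φ : SL(2, K) →* GL (Fin n) F) :
    SL(2, K) →* Matrix.SpecialLinearGroup (Fin n) F where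
  toFun x := ⟨(φ x : Matrix (Fin n) (Fin n) F), det_eq_one h4 φ x⟩
  map_one' := Subtype.ext (by simp)
  map_mul' x y := Subtype.ext (by
    show ((φ (x * y) : GL (Fin n) F) : Matrix (Fin n) (Fin n) F) = _ * _
    rw [map_mul, Units.val_mul])

theorem toSLHom_injective {n : ℕ} (h4 : 4 ≤ Fintype.card K) (φ : SL(2, K) →* GL (Fin n) F)
    (hφ : Function.Injective φ) : Function.Injective (toSLHom h4 φ) :=
  fun x y h => hφ (Units.ext (congrArg Subtype.val h))

theorem psl_word (w : FreeGroup ℕ) (hw : w ≠ 1) (hK : sl2Bound w ≤ Fintype.card K) {n : ℕ}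
    (φ : SL(2, K) →* GL (Fin n) F) (hφ : Function.Injective φ) :
    ∃ f : ℕ → Matrix.ProjectiveSpecialLinearGroup (Fin n) F, FreeGroup.lift f w ≠ 1 :=
  exists_quotient_center_ne_one w hw hK _ (toSLHom_injective (sl2Bound_ge_four hK) φ hφ)

theorem psp_word (w : FreeGroup ℕ) (hw : w ≠ 1) (hK : sl2Bound w ≤ Fintype.card K) {m : ℕ}
    (φ : SL(2, K) →* GL (Fin m) F) (hφ : Function.Injective φ) :
    ∃ f : ℕ → Cfsg.PSp m F, FreeGroup.lift f w ≠ 1 := by
  let ψ : SL(2, K) →* ↥(Matrix.symplecticGroup (Fin m) F) :=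
    ((Units.coeHom _).comp (leviHom.comp φ)).codRestrict _ (fun x => leviHom_mem_symplectic (φ x))
  exact exists_quotient_center_ne_one w hw hK ψ
    (fun x y h => hφ (leviHom_injective (Units.ext (congrArg Subtype.val h))))

theorem pomega_word (w : FreeGroup ℕ) (hw : w ≠ 1) (hK : sl2Bound w ≤ Fintype.card K)
    (Q : (ι → F) → F) (φ : SL(2, K) →* GL ι F) (hφ : Function.Injective φ)
    (hmem : ∀ x, φ x ∈ Cfsg.isometryGroup F Q) :
    ∃ f : ℕ → Cfsg.POmega F Q, FreeGroup.lift f w ≠ 1 := by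
  let ψ : SL(2, K) →* ↥(Cfsg.isometryGroup F Q) := φ.codRestrict _ hmem
  exact exists_quotient_center_ne_one w hw hK
    (ψ.codRestrict (Cfsg.Omega F Q) (fun x => sl2_hom_range_le_commutator (sl2Bound_ge_four hK) ψ x))
    (fun x y h => hφ (congrArg (fun z => (z.1.1 : GL ι F)) h))

theorem psu_word (w : FreeGroup ℕ) (hw : w ≠ 1) (hK : sl2Bound w ≤ Fintype.card K) {n q : ℕ}
    (φ : SL(2, K) →* GL (Fin n) F) (hφ : Function.Injective φ)
    (hmem : ∀ x u v, Cfsg.hermForm n F q ((φ x : Matrix (Fin n) (Fin n) F) *ᵥ u)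
      ((φ x : Matrix (Fin n) (Fin n) F) *ᵥ v) = Cfsg.hermForm n F q u v) :
    ∃ f : ℕ → Cfsg.PSU n F q, FreeGroup.lift f w ≠ 1 :=
  exists_quotient_center_ne_one w hw hK
    ((toSLHom (sl2Bound_ge_four hK) φ).codRestrict (Cfsg.SU n F q) (fun x => hmem x))
    (fun _ _ h => toSLHom_injective (sl2Bound_ge_four hK) φ hφ (congrArg Subtype.val h))

end sl2

section perm

variable {K : Type v} [Field K] [Fintype K]

/-- The permutation representation of `SL₂` on vectors. -/
def vecPerm (K : Type v) [Field K] : SL(2, K) →* Equiv.Perm (Fin 2 → K) :=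
  MulAction.toPermHom _ _

theorem vecPerm_injective : Function.Injective (vecPerm K) := by
  intro g h hgh
  apply Subtype.ext
  refine Matrix.ext_of_mulVec_single fun j => ?_
  exact DFunLike.congr_fun hgh (Pi.single j 1)

theorem exists_perm_hom {n : ℕ} (hn : Fintype.card K ^ 2 ≤ n) :
    ∃ π : SL(2, K) →* Equiv.Perm (Fin n), Function.Injective π := by
  classical
  obtain ⟨e⟩ : Nonempty ((Fin 2 → K) ↪ Fin n) :=
    Function.Embedding.nonempty_of_card_le (by simpa using hn)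
  exact ⟨(Equiv.Perm.viaEmbeddingHom e).comp (vecPerm K),
    (Equiv.Perm.viaEmbeddingHom_injective e).comp vecPerm_injective⟩

theorem alternating_word (w : FreeGroup ℕ) (hw : w ≠ 1) (hK : sl2Bound w ≤ Fintype.card K) {n : ℕ}
    (hn : Fintype.card K ^ 2 ≤ n) :
    ∃ f : ℕ → alternatingGroup (Fin n), FreeGroup.lift f w ≠ 1 := by
  obtain ⟨π, hπ⟩ := exists_perm_hom (K := K) hn
  have hmem : ∀ x, π x ∈ alternatingGroup (Fin n) := fun x => by
    have h := DFunLike.congr_fun (sl2_hom_comm_eq_one (sl2Bound_ge_four hK)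
      (Equiv.Perm.sign.comp π)) x
    simpa [Equiv.Perm.mem_alternatingGroup] using h
  obtain ⟨f, hf⟩ := exists_not_center_of_injective w hw hK (π.codRestrict _ hmem)
    (fun x y h => hπ (congrArg Subtype.val h))
  exact ⟨f, fun h1 => hf (by rw [h1]; exact one_mem _)⟩

variable {F : Type u} [Field F]

/-- Permutation matrices. -/
def permGL (F : Type u) [Field F] (n : ℕ) : Equiv.Perm (Fin n) →* GL (Fin n) F :=
  Matrix.permMatrixHom.toHomUnits

theorem permGL_mulVec {n : ℕ} (σ : Equiv.Perm (Fin n)) (v : Fin n → F) :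
    ((permGL F n σ : GL (Fin n) F) : Matrix (Fin n) (Fin n) F) *ᵥ v = v ∘ ⇑σ⁻¹ :=
  Matrix.permMatrix_mulVec _

theorem permGL_injective (n : ℕ) : Function.Injective (permGL F n) := by
  intro σ τ h
  have h' : ∀ v : Fin n → F, v ∘ ⇑σ⁻¹ = v ∘ ⇑τ⁻¹ := fun v => by
    rw [← permGL_mulVec, ← permGL_mulVec, h]
  refine inv_injective (Equiv.ext fun i => ?_)
  by_contra hne
  have := congrFun (h' (Pi.single (σ⁻¹ i) 1)) i
  simp only [Function.comp_apply, Pi.single_eq_same, Pi.single_eq_of_ne (Ne.symm hne)] at this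
  exact one_ne_zero this

theorem hermForm_perm {n q : ℕ} (σ : Equiv.Perm (Fin n)) (u v : Fin n → F) :
    Cfsg.hermForm n F q ((permGL F n σ : Matrix (Fin n) (Fin n) F) *ᵥ u)
      ((permGL F n σ : Matrix (Fin n) (Fin n) F) *ᵥ v) = Cfsg.hermForm n F q u v := by
  rw [permGL_mulVec, permGL_mulVec]
  exact Equiv.sum_comp σ⁻¹ (fun i => u i * v i ^ q)

end perm

section unitary

variable {F : Type} [Field F] [Fintype F]

theorem exists_subfield_hom {q : ℕ} (hF : Fintype.card F = q ^ 2) :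
    ∃ (K : Type) (_ : Field K) (_ : Fintype K) (σ : K →+* F),
      Fintype.card K = q ∧ ∀ x, σ x ^ q = σ x := by
  obtain ⟨p, n, hp, hn, hpn⟩ := (isPrimePow_nat_iff _).mp (FiniteField.isPrimePow_card F)
  haveI := Fact.mk hp
  haveI : CharP F p := charP_of_card_eq_prime_pow hpn.symm
  obtain ⟨f, -, rfl⟩ := (Nat.dvd_prime_pow hp).mp
    (show q ∣ p ^ n by rw [hpn, hF]; exact dvd_pow_self q two_ne_zero)
  have hnf : n = f * 2 := Nat.pow_right_injective hp.two_le (by simpa [← pow_mul] using hpn.trans hF)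
  have hf : f ≠ 0 := by omega
  letI : Algebra (ZMod p) F := ZMod.algebra F p
  haveI : Fintype (GaloisField p f) := Fintype.ofFinite _
  have hK : Fintype.card (GaloisField p f) = p ^ f := by
    rw [Fintype.card_eq_nat_card, GaloisField.card p f hf]
  have hr : Module.finrank (ZMod p) F = n :=
    Nat.pow_right_injective hp.two_le (by
      simpa [hpn] using FiniteField.pow_finrank_eq_card p F)
  obtain ⟨σ⟩ := FiniteField.nonempty_algHom_of_finrank_dvd (F := ZMod p) (K := GaloisField p f)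
    (L := F) (by rw [GaloisField.finrank p hf, hr, hnf]; exact dvd_mul_right _ _)
  refine ⟨GaloisField p f, inferInstance, inferInstance, σ.toRingHom, hK, fun x => ?_⟩
  rw [← map_pow, ← hK, FiniteField.pow_card]

theorem exists_sq_form {q : ℕ} (hq : 3 ≤ q) (hF : Fintype.card F = q ^ 2) :
    ∃ (P : GL (Fin 2) F) (δ : F), ∀ u v : Fin 2 → F,
      Cfsg.hermForm 2 F q ((P : Matrix (Fin 2) (Fin 2) F) *ᵥ u)
        ((P : Matrix (Fin 2) (Fin 2) F) *ᵥ v) = δ * (u 0 * v 1 ^ q - u 1 * v 0 ^ q) := by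
  obtain ⟨p, n, hp, hn, hpn⟩ := (isPrimePow_nat_iff _).mp (FiniteField.isPrimePow_card F)
  haveI := Fact.mk hp
  haveI : CharP F p := charP_of_card_eq_prime_pow hpn.symm
  obtain ⟨f, -, hqf⟩ := (Nat.dvd_prime_pow hp).mp
    (show q ∣ p ^ n by rw [hpn, hF]; exact dvd_pow_self q two_ne_zero)
  have hadd : ∀ x y : F, (x + y) ^ q = x ^ q + y ^ q := fun x y => by rw [hqf]; exact add_pow_char_pow ..
  have hsub : ∀ x y : F, (x - y) ^ q = x ^ q - y ^ q := fun x y => by rw [hqf]; exact sub_pow_char_pow ..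
  have hneg : ∀ x : F, (-x) ^ q = -(x ^ q) := fun x => by
    simpa [zero_pow (show q ≠ 0 by omega)] using hsub 0 x
  have hqq : ∀ x : F, (x ^ q) ^ q = x := fun x => by
    rw [← pow_mul, ← sq, ← hF, FiniteField.pow_card]
  obtain ⟨x, hx⟩ : ∃ x : F, x ^ q ≠ x := by
    by_contra hall
    simp only [not_exists, not_not] at hall
    have := Polynomial.eq_zero_of_natDegree_lt_card_of_eval_eq_zero'
      (Polynomial.X ^ q - Polynomial.X : Polynomial F) Finset.univ (fun t _ => by simp [hall t])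
      (by rw [FiniteField.X_pow_card_sub_X_natDegree_eq _ (by omega), Finset.card_univ, hF]; nlinarith)
    exact FiniteField.X_pow_card_sub_X_ne_zero _ (by omega) this
  obtain ⟨g, hg⟩ := IsCyclic.exists_generator (α := Fˣ)
  have hg' : orderOf g = q ^ 2 - 1 := by
    rw [orderOf_eq_card_of_forall_mem_zpowers hg, Nat.card_units, Nat.card_eq_fintype_card, hF]
  have hqm : (q + 1) * (q - 1) = q ^ 2 - 1 := by rw [← one_pow 2, Nat.sq_sub_sq, one_pow]
  obtain ⟨ζ, hζ⟩ : ∃ ζ : Fˣ, ζ ^ (q + 1) = -1 := by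
    obtain ⟨k, hk : g ^ k = -1⟩ :=
      (mem_powers_iff_mem_zpowers (x := g)).mpr (hg (-1))
    have h1 : (g ^ k) ^ (q - 1) = 1 := by
      rw [hk]
      apply Units.ext
      have : ((-1 : F) ^ (q - 1)) * (-1) = -1 := by
        rw [← pow_succ, Nat.sub_add_cancel (by omega : 1 ≤ q), hneg, one_pow]
      simpa using this
    rw [← pow_mul, ← orderOf_dvd_iff_pow_eq_one, hg', ← hqm] at h1
    obtain ⟨r, hr⟩ := Nat.dvd_of_mul_dvd_mul_right (by omega : 0 < q - 1) h1
    exact ⟨g ^ r, by rw [← pow_mul, ← hk, hr, mul_comm]⟩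
  set η : Fˣ := ζ * g ^ (q - 1) with hη_def
  have hη : η ^ (q + 1) = -1 := by
    rw [hη_def, mul_pow, hζ, ← pow_mul, mul_comm (q - 1), hqm, ← hg', pow_orderOf_eq_one, mul_one]
  have hne : (ζ : F) ≠ η := by
    intro h
    have h1 : g ^ (q - 1) = 1 := by
      simpa [η] using (Units.ext h : ζ = η).symm
    have := Nat.le_of_dvd (by omega) (orderOf_dvd_of_pow_eq_one h1)
    rw [hg', ← hqm] at this
    nlinarith [show 0 < q - 1 by omega]
  have hζ' : (ζ : F) * (ζ : F) ^ q = -1 := by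
    rw [← pow_succ']; simpa using congrArg Units.val hζ
  have hη' : (η : F) * (η : F) ^ q = -1 := by
    rw [← pow_succ']; simpa using congrArg Units.val hη
  set k : F := 1 + (ζ : F) * (η : F) ^ q with hk_def
  have hk : k ≠ 0 := fun h =>
    sub_ne_zero.mpr hne (by
      have : ((ζ : F) - η) * (η : F) ^ q = 0 := by linear_combination h - hη'
      exact (mul_eq_zero.mp this).resolve_right (pow_ne_zero _ η.ne_zero))
  set δ : F := x ^ q - x with hδ_def
  have hδ : δ ≠ 0 := sub_ne_zero.mpr hx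
  have hδq : δ ^ q = -δ := by rw [hδ_def, hsub, hqq]; ring
  set c : F := (δ / k) ^ q with hc_def
  have hcq : c ^ q * k = δ := by rw [hc_def, hqq, div_mul_cancel₀ _ hk]
  have hkq : k ^ q = 1 + (η : F) * (ζ : F) ^ q := by
    rw [hk_def, hadd, mul_pow, hqq, one_pow]; ring
  have hck : c * (1 + (η : F) * (ζ : F) ^ q) = -δ := by
    rw [← hkq, hc_def, ← mul_pow, div_mul_cancel₀ _ hk, hδq]
  have hdet : (!![1, c; (ζ : F), c * η]).det ≠ 0 := by
    rw [Matrix.det_fin_two_of]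
    have hc : c ≠ 0 := pow_ne_zero _ (div_ne_zero hδ hk)
    rw [show (1 : F) * (c * η) - c * ζ = c * ((η : F) - ζ) by ring]
    exact mul_ne_zero hc (sub_ne_zero.mpr hne.symm)
  refine ⟨Matrix.GeneralLinearGroup.mkOfDetNeZero _ hdet, δ, fun u v => ?_⟩
  simp [Cfsg.hermForm, Fin.sum_univ_two, Matrix.mulVec, dotProduct, hadd, mul_pow]
  linear_combination (u 0 * v 0 ^ q) * hζ' + (u 0 * v 1 ^ q) * hcq + (u 1 * v 0 ^ q) * hck +
    (u 1 * v 1 ^ q * c * c ^ q) * hη'

set_option maxHeartbeats 1000000 in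
theorem exists_sl2_unitary {q n : ℕ} (hq : 3 ≤ q) (hn : 2 ≤ n) (hF : Fintype.card F = q ^ 2) :
    ∃ (K : Type) (_ : Field K) (_ : Fintype K) (φ : SL(2, K) →* GL (Fin n) F),
      Fintype.card K = q ∧ Function.Injective φ ∧
      ∀ x u v, Cfsg.hermForm n F q ((φ x : Matrix (Fin n) (Fin n) F) *ᵥ u)
        ((φ x : Matrix (Fin n) (Fin n) F) *ᵥ v) = Cfsg.hermForm n F q u v := by
  obtain ⟨K, _, _, σ, hK, hσ⟩ := exists_subfield_hom hF
  obtain ⟨P, δ, hP⟩ := exists_sq_form hq hF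
  have hadd : ∀ x y : F, (x + y) ^ q = x ^ q + y ^ q := fun x y => by
    obtain ⟨p, r, hp, hr, hpr⟩ := (isPrimePow_nat_iff _).mp (FiniteField.isPrimePow_card F)
    haveI := Fact.mk hp
    haveI : CharP F p := charP_of_card_eq_prime_pow hpr.symm
    obtain ⟨f, -, hqf⟩ := (Nat.dvd_prime_pow hp).mp
      (show q ∣ p ^ r by rw [hpr, hF]; exact dvd_pow_self q two_ne_zero)
    rw [hqf]; exact add_pow_char_pow ..
  let base : SL(2, K) →* GL (Fin 2) F :=
    (MulAut.conj P).toMonoidHom.comp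
      (Matrix.SpecialLinearGroup.toGL.comp (Matrix.SpecialLinearGroup.map σ))
  have hbase_inj : Function.Injective base := by
    refine (MulAut.conj P).injective.comp (Matrix.SpecialLinearGroup.toGL_injective.comp ?_)
    intro a b h
    apply Subtype.ext
    ext i j
    exact σ.injective (congrFun (congrFun (congrArg Subtype.val h) i) j)
  have hbase : ∀ (x : SL(2, K)) (u v : Fin 2 → F),
      Cfsg.hermForm 2 F q ((base x : Matrix (Fin 2) (Fin 2) F) *ᵥ u)
        ((base x : Matrix (Fin 2) (Fin 2) F) *ᵥ v) = Cfsg.hermForm 2 F q u v := by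
    intro x u v
    have hcoe : (base x : Matrix (Fin 2) (Fin 2) F) = (P : Matrix (Fin 2) (Fin 2) F) *
        (x : Matrix (Fin 2) (Fin 2) K).map σ * ((P⁻¹ : GL (Fin 2) F) : Matrix (Fin 2) (Fin 2) F) := by
      simp [base]
    obtain ⟨u', rfl⟩ : ∃ u', u = (P : Matrix (Fin 2) (Fin 2) F) *ᵥ u' :=
      ⟨((P⁻¹ : GL (Fin 2) F) : Matrix (Fin 2) (Fin 2) F) *ᵥ u, by rw [Matrix.mulVec_mulVec, ← Units.val_mul, mul_inv_cancel, Units.val_one, Matrix.one_mulVec]⟩
    obtain ⟨v', rfl⟩ : ∃ v', v = (P : Matrix (Fin 2) (Fin 2) F) *ᵥ v' :=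
      ⟨((P⁻¹ : GL (Fin 2) F) : Matrix (Fin 2) (Fin 2) F) *ᵥ v, by rw [Matrix.mulVec_mulVec, ← Units.val_mul, mul_inv_cancel, Units.val_one, Matrix.one_mulVec]⟩
    have hm : ∀ z, (base x : Matrix (Fin 2) (Fin 2) F) *ᵥ ((P : Matrix (Fin 2) (Fin 2) F) *ᵥ z) =
        (P : Matrix (Fin 2) (Fin 2) F) *ᵥ ((x : Matrix (Fin 2) (Fin 2) K).map σ *ᵥ z) := by
      intro z
      rw [hcoe]
      simp only [Matrix.mulVec_mulVec, Matrix.mul_assoc]
      rw [← Units.val_mul, inv_mul_cancel, Units.val_one, Matrix.mul_one]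
    rw [hm, hm, hP, hP]
    have hdet : σ ((x : Matrix (Fin 2) (Fin 2) K) 0 0) * σ ((x : Matrix (Fin 2) (Fin 2) K) 1 1) -
        σ ((x : Matrix (Fin 2) (Fin 2) K) 0 1) * σ ((x : Matrix (Fin 2) (Fin 2) K) 1 0) = 1 := by
      rw [← map_mul, ← map_mul, ← map_sub, ← Matrix.det_fin_two, x.2, map_one]
    simp [Matrix.mulVec, dotProduct, Fin.sum_univ_two, hadd, mul_pow, hσ]
    left
    linear_combination (u' 0 * v' 1 ^ q - u' 1 * v' 0 ^ q) * hdet
  clear_value base
  refine ⟨K, _, _, (cornerHom hn).comp base, hK, ?_, ?_⟩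
  · rw [MonoidHom.coe_comp]
    exact (cornerHom_injective hn).comp hbase_inj
  intro x u v
  simp only [MonoidHom.comp_apply, cornerHom]
  rw [reindexGL_mulVec, padGL_mulVec, reindexGL_mulVec, padGL_mulVec]
  set e := finSumFinEquiv.trans (finCongr (Nat.add_sub_cancel' hn)) with he
  have hsum : ∀ (a b : Fin n → F), Cfsg.hermForm n F q a b =
      Cfsg.hermForm 2 F q ((a ∘ e) ∘ Sum.inl) ((b ∘ e) ∘ Sum.inl) +
        ∑ i, (a ∘ e) (Sum.inr i) * (b ∘ e) (Sum.inr i) ^ q := by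
    intro a b
    rw [Cfsg.hermForm, ← Equiv.sum_comp e, Fintype.sum_sum_type]
    rfl
  rw [hsum, hsum u v]
  simp only [Function.comp_assoc, Equiv.symm_comp_self, Function.comp_id, Sum.elim_comp_inl]
  rw [hbase]
  simp

end unitary

end CfsgLib.LawFree
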