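import Mathlib.LinearAlgebra.Matrix.ToLin
import Mathlib.Algebra.Polynomial.Roots
import Mathlib.GroupTheory.FreeGroup.Reduce
import Mathlib.LinearAlgebra.Matrix.GeneralLinearGroup.Defs
import Mathlib.Data.Fintype.Card

/-!
Ping-pong by degrees: a reduced word in conjugates `P a * diag (t ^ k) * (P a)⁻¹` of a one-parameter
torus is not scalar for some parameter `t`, as soon as the field is large compared with the length of
the word and the conjugating matrices are in general position.
-/

set_option autoImplicit false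

namespace CfsgLib.LawFree

open Polynomial Matrix

variable {F : Type*} [Field F] {ι : Type*} [Fintype ι] [DecidableEq ι]

/-- All entries have degree at most `e`, and the coefficients in degree `e` form `T`. -/
def HasTop (M : Matrix ι ι F[X]) (e : ℕ) (T : Matrix ι ι F) : Prop :=
  ∀ i j, (M i j).natDegree ≤ e ∧ (M i j).coeff e = T i j

omit [DecidableEq ι] in
theorem HasTop.mul {M N : Matrix ι ι F[X]} {e f : ℕ} {S T : Matrix ι ι F}
    (hM : HasTop M e S) (hN : HasTop N f T) : HasTop (M * N) (e + f) (S * T) := by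
  intro i j
  constructor
  · rw [Matrix.mul_apply]
    refine natDegree_sum_le_of_forall_le _ _ fun k _ => ?_
    exact natDegree_mul_le.trans (Nat.add_le_add (hM i k).1 (hN k j).1)
  · rw [Matrix.mul_apply, finsetSum_coeff, Matrix.mul_apply]
    refine Finset.sum_congr rfl fun k _ => ?_
    rw [coeff_mul_add_eq_of_natDegree_le (hM i k).1 (hN k j).1, (hM i k).2, (hN k j).2]

omit [DecidableEq ι] [Fintype ι] in
theorem hasTop_C (P : Matrix ι ι F) : HasTop (P.map (C : F →+* F[X])) 0 P := by
  intro i j
  simp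

omit [Fintype ι] in
theorem hasTop_diag (d : ι → ℕ) (i₀ : ι) (h : ∀ i, i ≠ i₀ → d i < d i₀) :
    HasTop (diagonal fun i => (X : F[X]) ^ d i) (d i₀) (Matrix.single i₀ i₀ 1) := by
  intro i j
  by_cases hij : i = j
  · subst hij
    by_cases hi : i = i₀
    · subst hi; simp
    · have := h i hi
      simp [coeff_X_pow, Matrix.single, this.le, this.ne', Ne.symm hi]
  · simp only [diagonal_apply_ne _ hij, natDegree_zero, zero_le, coeff_zero, true_and]
    rw [Matrix.single_apply, if_neg]
    rintro ⟨rfl, rfl⟩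
    exact hij rfl

/-- Data of a ping-pong configuration. -/
structure Config (F : Type*) [Field F] (ι : Type*) [Fintype ι] [DecidableEq ι] (α : Type*) where
  P : α → Matrix ι ι F
  Q : α → Matrix ι ι F
  d : Bool → ι → ℕ
  top : Bool → ι
  e : ℕ

variable {α : Type*}

/-- The polynomial matrix of a letter. -/
noncomputable def Config.letter (c : Config F ι α) (x : α × Bool) : Matrix ι ι F[X] :=
  (c.P x.1).map (C : F →+* F[X]) * diagonal (fun i => (X : F[X]) ^ c.d x.2 i) *
    (c.Q x.1).map (C : F →+* F[X])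

/-- The general-position condition, for letters from `S`. -/
structure Config.Good (c : Config F ι α) (S : Set α) : Prop where
  inv : ∀ a ∈ S, c.Q a * c.P a = 1
  gap : ∀ b i, i ≠ c.top b → c.d b i < c.e
  htop : ∀ b, c.d b (c.top b) = c.e
  gen : ∀ a ∈ S, ∀ a' ∈ S, a ≠ a' → ∀ b b', (c.Q a * c.P a') (c.top b) (c.top b') ≠ 0

theorem Config.hasTop_letter {c : Config F ι α} {S : Set α} (hc : c.Good S) (x : α × Bool) :
    HasTop (c.letter x) c.e (vecMulVec (fun i => c.P x.1 i (c.top x.2)) (c.Q x.1 (c.top x.2))) := by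
  have h := ((hasTop_C (c.P x.1)).mul
    (hasTop_diag (F := F) (c.d x.2) (c.top x.2) (fun i hi => by rw [hc.htop]; exact hc.gap _ i hi))).mul
    (hasTop_C (c.Q x.1))
  rw [hc.htop, Nat.add_zero, Nat.zero_add] at h
  have key : c.P x.1 * Matrix.single (c.top x.2) (c.top x.2) 1 * c.Q x.1 =
      vecMulVec (fun i => c.P x.1 i (c.top x.2)) (c.Q x.1 (c.top x.2)) := by
    ext i j
    simp [Matrix.mul_apply, vecMulVec_apply, Matrix.single_apply, ite_and]
  rw [key] at h
  exact h

theorem Config.hasTop_word {c : Config F ι α} {S : Set α} (hc : c.Good S) :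
    ∀ (L : List (α × Bool)) (x : α × Bool), (∀ y ∈ x :: L, y.1 ∈ S) → FreeGroup.IsReduced (x :: L) →
      ∃ v : ι → F, v ≠ 0 ∧ HasTop ((x :: L).map c.letter).prod ((L.length + 1) * c.e)
        (vecMulVec (fun i => c.P x.1 i (c.top x.2)) v) := by
  intro L
  induction L with
  | nil =>
    intro x hS _
    refine ⟨c.Q x.1 (c.top x.2), ?_, ?_⟩
    · intro h
      have := congrFun (congrFun (hc.inv x.1 (hS x (by simp))) (c.top x.2)) (c.top x.2)
      simp [Matrix.mul_apply, h] at this
    · simpa using c.hasTop_letter hc x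
  | cons y L ih =>
    intro x hS hred
    obtain ⟨hxy, hred'⟩ := FreeGroup.isReduced_cons_cons.mp hred
    obtain ⟨v, hv, htop⟩ := ih y (fun z hz => hS z (List.mem_cons_of_mem _ hz)) hred'
    have hne : c.Q x.1 (c.top x.2) ⬝ᵥ (fun i => c.P y.1 i (c.top y.2)) ≠ 0 := by
      have key : c.Q x.1 (c.top x.2) ⬝ᵥ (fun i => c.P y.1 i (c.top y.2)) =
          (c.Q x.1 * c.P y.1) (c.top x.2) (c.top y.2) := rfl
      rw [key]
      by_cases h1 : x.1 = y.1
      · rw [h1, hc.inv y.1 (hS y (by simp)), hxy h1]
        simp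
      · exact hc.gen _ (hS x (by simp)) _ (hS y (by simp)) h1 _ _
    refine ⟨(c.Q x.1 (c.top x.2) ⬝ᵥ (fun i => c.P y.1 i (c.top y.2))) • v, smul_ne_zero hne hv, ?_⟩
    have h := (c.hasTop_letter hc x).mul htop
    rw [List.map_cons, List.prod_cons]
    convert h using 1
    · simp only [List.length_cons]; ring
    · rw [vecMulVec_mul_vecMulVec]

omit [Fintype ι] in
theorem exists_nonscalar_poly [Nontrivial ι] {M : Matrix ι ι F[X]} {e : ℕ} {u v : ι → F}
    (hu : u ≠ 0) (hv : v ≠ 0) (h : HasTop M e (vecMulVec u v)) :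
    ∃ Z : F[X], Z ≠ 0 ∧ Z.natDegree ≤ e ∧
      ∀ (t k : F), M.map (eval t) = k • (1 : Matrix ι ι F) → Z.eval t = 0 := by
  by_cases hoff : ∃ i j, i ≠ j ∧ u i * v j ≠ 0
  · obtain ⟨i, j, hij, hne⟩ := hoff
    refine ⟨M i j, fun h0 => hne ?_, (h i j).1, fun t k hk => ?_⟩
    · have := (h i j).2
      rw [h0, coeff_zero] at this
      exact this.symm
    · simpa [hij] using congrFun (congrFun hk i) j
  · simp only [not_exists, not_and, not_not] at hoff
    obtain ⟨i, hi⟩ := Function.ne_iff.mp hu
    obtain ⟨j, hj⟩ := Function.ne_iff.mp hv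
    have hij : i = j := by
      by_contra hne
      exact mul_ne_zero hi hj (hoff i j hne)
    subst hij
    obtain ⟨k₀, hk₀⟩ := exists_ne i
    refine ⟨M i i - M k₀ k₀, fun h0 => ?_, ?_, fun t k hk => ?_⟩
    · have h1 : u k₀ = 0 := by
        have := hoff k₀ i hk₀
        exact (mul_eq_zero.mp this).resolve_right hj
      have : (M i i - M k₀ k₀).coeff e = 0 := by rw [h0, coeff_zero]
      rw [coeff_sub, (h i i).2, (h k₀ k₀).2, vecMulVec_apply, vecMulVec_apply, h1] at this
      simp only [zero_mul, sub_zero] at this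
      exact mul_ne_zero hi hj this
    · exact (natDegree_sub_le _ _).trans (max_le (h i i).1 (h k₀ k₀).1)
    · have h1 := congrFun (congrFun hk i) i
      have h2 := congrFun (congrFun hk k₀) k₀
      simp at h1 h2
      simp [h1, h2]

/-- The main statement: for some parameter `t ≠ 0` the word is not scalar in any realization. -/
theorem exists_param_not_scalar [Fintype F] [Nontrivial ι] [DecidableEq α] (c : Config F ι α)
    (w : FreeGroup α) (hw : w ≠ 1) (hc : c.Good {a | ∃ b, (a, b) ∈ w.toWord})
    (hF : w.toWord.length * c.e + 1 < Fintype.card F) :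
    ∃ t : F, t ≠ 0 ∧ ∀ {G : Type*} [Group G] (ρ : G →* Matrix ι ι F) (f : α → G) (s : F), s ≠ 0 →
      (∀ a, (∃ b, (a, b) ∈ w.toWord) →
        ρ (f a) = s • (c.P a * diagonal (fun i => t ^ c.d true i) * c.Q a) ∧
        ρ (f a)⁻¹ = s • (c.P a * diagonal (fun i => t ^ c.d false i) * c.Q a)) →
      ∀ k : F, ρ (FreeGroup.lift f w) ≠ k • (1 : Matrix ι ι F) := by
  obtain ⟨x, L, hL⟩ : ∃ x L, w.toWord = x :: L := by
    cases h : w.toWord with
    | nil => exact absurd (FreeGroup.toWord_eq_nil_iff.mp h) hw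
    | cons x L => exact ⟨x, L, rfl⟩
  have hS : ∀ y ∈ x :: L, y.1 ∈ {a | ∃ b, (a, b) ∈ w.toWord} :=
    fun y hy => ⟨y.2, by rw [hL]; exact hy⟩
  obtain ⟨v, hv, htop⟩ := c.hasTop_word hc L x hS (hL ▸ FreeGroup.isReduced_toWord)
  have hu : (fun i => c.P x.1 i (c.top x.2)) ≠ 0 := fun h0 => by
    have := congrFun (congrFun (hc.inv x.1 (hS x (by simp))) (c.top x.2)) (c.top x.2)
    simp [Matrix.mul_apply, funext_iff] at this h0
    simp [h0] at this
  obtain ⟨Z, hZ, hdeg, hscal⟩ := exists_nonscalar_poly hu hv htop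
  obtain ⟨t, ht⟩ : ∃ t : F, (Z * X).eval t ≠ 0 := by
    by_contra hcon
    simp only [not_exists, not_not] at hcon
    refine mul_ne_zero hZ X_ne_zero (eq_zero_of_natDegree_lt_card_of_eval_eq_zero' (Z * X)
      Finset.univ (fun t _ => hcon t) ?_)
    rw [natDegree_mul hZ X_ne_zero, natDegree_X, Finset.card_univ]
    have : (L.length + 1) * c.e + 1 < Fintype.card F := by simpa [hL] using hF
    omega
  rw [eval_mul, eval_X] at ht
  refine ⟨t, right_ne_zero_of_mul ht, ?_⟩
  intro G _ ρ f s hs hf k hk
  have hletter : ∀ y ∈ w.toWord, ρ (cond y.2 (f y.1) (f y.1)⁻¹) = s • (c.letter y).map (eval t) := by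
    intro y hy
    obtain ⟨h1, h2⟩ := hf y.1 ⟨y.2, hy⟩
    have hmap : (c.letter y).map (eval t) =
        c.P y.1 * diagonal (fun i => t ^ c.d y.2 i) * c.Q y.1 := by
      show (c.letter y).map ⇑(evalRingHom t) = _
      have hC : ∀ M : Matrix ι ι F, (M.map (C : F →+* F[X])).map ⇑(evalRingHom t) = M := by
        intro M
        ext i j
        simp
      rw [Config.letter, Matrix.map_mul, Matrix.map_mul, hC, hC]
      congr 2
      rw [Matrix.diagonal_map (map_zero _)]
      simp
    rw [hmap]
    cases y.2 <;> simp [h1, h2]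
  have hprod : ∀ M : List (α × Bool), (∀ y ∈ M, y ∈ w.toWord) →
      ρ ((M.map fun y => cond y.2 (f y.1) (f y.1)⁻¹).prod) =
        s ^ M.length • ((M.map c.letter).prod).map (eval t) := by
    intro M hM
    induction M with
    | nil => simp
    | cons y M ih =>
      rw [List.map_cons, List.prod_cons, map_mul, hletter y (hM y (by simp)),
        ih (fun z hz => hM z (List.mem_cons_of_mem _ hz)), List.map_cons, List.prod_cons,
        List.length_cons]
      have hev : ∀ A B : Matrix ι ι F[X], (A * B).map (eval t) = A.map (eval t) * B.map (eval t) :=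
        fun A B => Matrix.map_mul (f := evalRingHom t)
      rw [hev, Matrix.smul_mul, Matrix.mul_smul, smul_smul, pow_succ']
  have hlift : FreeGroup.lift f w = (w.toWord.map fun y => cond y.2 (f y.1) (f y.1)⁻¹).prod := by
    conv_lhs => rw [← FreeGroup.mk_toWord (x := w)]
    exact FreeGroup.lift_mk
  rw [hlift, hprod _ (fun y hy => hy), hL] at hk
  refine left_ne_zero_of_mul ht (hscal t ((s ^ (x :: L).length)⁻¹ * k) ?_)
  rw [mul_smul, ← hk, smul_smul, inv_mul_cancel₀ (pow_ne_zero _ hs), one_smul]

/-- Pick `K` field elements whose differences avoid a finite set. -/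
theorem exists_separated [Fintype F] [DecidableEq F] (B : Finset F) :
    ∀ K : ℕ, K * (2 * B.card + 2) < Fintype.card F →
      ∃ b : ℕ → F, ∀ i < K, ∀ j < K, i ≠ j → b i - b j ≠ 0 ∧ b i - b j ∉ B := by
  intro K
  induction K with
  | zero => exact fun _ => ⟨fun _ => 0, fun i hi => absurd hi (Nat.not_lt_zero i)⟩
  | succ K ih =>
    intro hK
    obtain ⟨b, hb⟩ := ih (lt_of_le_of_lt (Nat.mul_le_mul_right _ (Nat.le_succ K)) hK)
    set bad : Finset F := (Finset.range K).biUnion fun i =>
      insert (b i) (B.image (fun z => b i + z) ∪ B.image (fun z => b i - z)) with hbad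
    have hcard : bad.card ≤ K * (2 * B.card + 1) := by
      refine (Finset.card_biUnion_le_card_mul _ _ (2 * B.card + 1) fun i _ => ?_).trans (by simp)
      refine (Finset.card_insert_le _ _).trans (Nat.succ_le_succ ?_)
      refine (Finset.card_union_le _ _).trans ?_
      have := Finset.card_image_le (f := fun z => b i + z) (s := B)
      have := Finset.card_image_le (f := fun z => b i - z) (s := B)
      omega
    have hlt : bad.card < (Finset.univ : Finset F).card := by
      rw [Finset.card_univ]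
      refine lt_of_le_of_lt hcard (lt_of_le_of_lt ?_ hK)
      exact Nat.mul_le_mul (Nat.le_succ K) (Nat.le_succ _)
    obtain ⟨x, -, hx⟩ := Finset.exists_mem_notMem_of_card_lt_card hlt
    simp only [hbad, Finset.mem_biUnion, Finset.mem_range, Finset.mem_insert, Finset.mem_union,
      Finset.mem_image, not_exists, not_and, not_or] at hx
    refine ⟨Function.update b K x, fun i hi j hj hij => ?_⟩
    rcases Nat.lt_succ_iff_lt_or_eq.mp hi with hi' | hi'
    · rcases Nat.lt_succ_iff_lt_or_eq.mp hj with hj' | hj'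
      · simpa [Function.update_of_ne hi'.ne, Function.update_of_ne hj'.ne] using hb i hi' j hj' hij
      · subst hj'
        rw [Function.update_self, Function.update_of_ne hi'.ne]
        obtain ⟨h1, h2, h3⟩ := hx i hi'
        exact ⟨sub_ne_zero.mpr (Ne.symm h1), fun h => h3 _ h (by ring)⟩
    · subst hi'
      have hj' : j < i := lt_of_le_of_ne (Nat.lt_succ_iff.mp hj) (Ne.symm hij)
      rw [Function.update_self, Function.update_of_ne hj'.ne]
      obtain ⟨h1, h2, h3⟩ := hx j hj'
      exact ⟨sub_ne_zero.mpr h1, fun h => h2 _ h (by ring)⟩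

/-- A bound on the generators occurring in a word. -/
def genBound (w : FreeGroup ℕ) : ℕ := (w.toWord.map fun y => y.1 + 1).sum

theorem lt_genBound {w : FreeGroup ℕ} {a : ℕ} {b : Bool} (h : (a, b) ∈ w.toWord) : a < genBound w :=
  Nat.lt_of_succ_le (List.le_sum_of_mem (List.mem_map.mpr ⟨(a, b), h, rfl⟩))

end CfsgLib.LawFree
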